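import Mathlib

/-!
# Project QB (helper48, S2359), piece KEYAP (helper11): the centralizer of an element of prime
order dividing `(q - 1) / 2` is cyclic of order `q - 1` (assembly with lemma-hypotheses).
-/

set_option autoImplicit false

namespace Cfsg.Agent.Lib.Helper48.QB

theorem keyap_comm {G : Type*} [Group G] (Tor : Subgroup G) (hTc : IsCyclic Tor) :
    ∀ a ∈ Tor, ∀ b ∈ Tor, a * b = b * a := by
  intro a ha b hb
  obtain ⟨gen, hgen⟩ := hTc.exists_zpow_surjective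
  obtain ⟨i, hi⟩ := hgen ⟨a, ha⟩
  obtain ⟨j, hj⟩ := hgen ⟨b, hb⟩
  have hi' : gen ^ i = ⟨a, ha⟩ := hi
  have hj' : gen ^ j = ⟨b, hb⟩ := hj
  have h1 : (⟨a, ha⟩ : ↥Tor) * ⟨b, hb⟩ = ⟨b, hb⟩ * ⟨a, ha⟩ := by
    rw [← hi', ← hj', ← zpow_add, ← zpow_add, add_comm]
  exact congrArg Subtype.val h1

-- QB-KEYAP
theorem keyA_prime {G : Type*} [Group G] [Finite G] (Tor : Subgroup G) (hTc : IsCyclic Tor)
    (q : ℕ) (hq8 : q % 8 = 3) (hT : Nat.card Tor = q - 1)
    (hG : Nat.card G = q ^ 3 * (q - 1) * (q ^ 3 + 1))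
    (hcent : ∀ t ∈ Tor, t * t ≠ 1 → ∀ g : G, g * t = t * g → g ∈ Tor)
    (hnt : ∀ r : ℕ, r.Prime → r ∣ (q - 1) / 2 →
      (q - 1).factorization r = (q ^ 3 * (q - 1) * (q ^ 3 + 1)).factorization r ∧ r ≠ 2)
    (hsyl : ∀ (M : Subgroup G) (r : ℕ), r.Prime →
      (Nat.card M).factorization r = (Nat.card G).factorization r →
      ∀ y : G, orderOf y = r → ∃ g : G, g * y * g⁻¹ ∈ M)
    (hconj : ∀ g y : G, Nonempty (Subgroup.centralizer {y} ≃* Subgroup.centralizer {g * y * g⁻¹}))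
    (y : G) (hy : (orderOf y).Prime) (hyn : y ^ ((q - 1) / 2) = 1) :
    IsCyclic (Subgroup.centralizer {y}) ∧ Nat.card (Subgroup.centralizer {y}) = q - 1 := by
  classical
  have hdvd : orderOf y ∣ (q - 1) / 2 := orderOf_dvd_of_pow_eq_one hyn
  obtain ⟨hfac, hr2⟩ := hnt (orderOf y) hy hdvd
  obtain ⟨g, hgT⟩ := hsyl Tor (orderOf y) hy (by rw [hT, hG]; exact hfac) y rfl
  have hord : orderOf (g * y * g⁻¹) = orderOf y :=
    orderOf_injective (MulAut.conj g).toMonoidHom (MulAut.conj g).injective y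
  have htt : (g * y * g⁻¹) * (g * y * g⁻¹) ≠ 1 := by
    intro h
    have h1 : orderOf (g * y * g⁻¹) ∣ 2 :=
      orderOf_dvd_of_pow_eq_one (by rw [pow_two]; exact h)
    rw [hord] at h1
    exact hr2 ((Nat.prime_dvd_prime_iff_eq hy Nat.prime_two).1 h1)
  have hcomm := keyap_comm Tor hTc
  have hct : Subgroup.centralizer {g * y * g⁻¹} = Tor := by
    apply le_antisymm
    · intro x hx
      rw [Subgroup.mem_centralizer_iff] at hx
      exact hcent _ hgT htt x (hx _ (Set.mem_singleton _)).symm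
    · intro x hx
      rw [Subgroup.mem_centralizer_iff]
      intro h hh
      rw [Set.mem_singleton_iff] at hh
      rw [hh]
      exact hcomm _ hgT x hx
  obtain ⟨e⟩ := hconj g y
  constructor
  · haveI : IsCyclic (Subgroup.centralizer {g * y * g⁻¹}) := by
      rw [hct]
      exact hTc
    exact isCyclic_of_surjective e.symm e.symm.surjective
  · rw [Nat.card_congr e.toEquiv, hct, hT]

end Cfsg.Agent.Lib.Helper48.QB
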