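import Mathlib
import Cfsg.Prelude.Def_Sporadic_a
import Cfsg.Agent.Lib.Helper9.Steiner
import Cfsg.Agent.Lib.Helper9.Steiner5824

set_option autoImplicit false

namespace Cfsg.Agent.Lib.Helper11

open Finset Cfsg.Agent.Lib.Helper9

variable {α : Type*} [Fintype α] [DecidableEq α]

/-- An `S(3,6,22)` has 77 blocks. -/
theorem card_blocks_3_6_22 (hα : Fintype.card α = 22) {B : Set (Finset α)}
    (hB : Cfsg.IsSteinerSystem 3 6 B) : (blocksFin B).card = 77 := by
  have h := card_blocks_through hB ∅ (by simp)
  have hf : (blocksFin B).filter (fun c => ∅ ⊆ c) = blocksFin B :=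
    filter_true_of_mem (fun c _ => empty_subset c)
  rw [hf, card_empty, hα] at h
  norm_num [Nat.choose] at h
  omega

/-- In an `S(3,6,22)` every point lies on 21 blocks. -/
theorem card_blocks_point_3_6_22 (hα : Fintype.card α = 22) {B : Set (Finset α)}
    (hB : Cfsg.IsSteinerSystem 3 6 B) (p : α) :
    ((blocksFin B).filter (fun c => p ∈ c)).card = 21 := by
  have h := card_blocks_through hB {p} (by simp)
  simp only [singleton_subset_iff, card_singleton, hα] at h
  norm_num [Nat.choose] at h
  omega

/-- In an `S(3,6,22)` every pair of distinct points lies on 5 blocks. -/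
theorem card_blocks_pair_3_6_22 (hα : Fintype.card α = 22) {B : Set (Finset α)}
    (hB : Cfsg.IsSteinerSystem 3 6 B) {p q : α} (hpq : p ≠ q) :
    ((blocksFin B).filter (fun c => p ∈ c ∧ q ∈ c)).card = 5 := by
  have hc : ({p, q} : Finset α).card = 2 := card_pair hpq
  have h := card_blocks_through hB {p, q} (by rw [hc]; norm_num)
  have hf : (blocksFin B).filter (fun c => ({p, q} : Finset α) ⊆ c) =
      (blocksFin B).filter (fun c => p ∈ c ∧ q ∈ c) := by
    apply filter_congr
    intro c _
    simp [insert_subset_iff]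
  rw [hf, hc, hα] at h
  norm_num [Nat.choose] at h
  omega

/-- Intersection numbers of a block of an `S(3,6,22)`. -/
theorem interNum_3_6_22 (hα : Fintype.card α = 22) {B : Set (Finset α)}
    (hB : Cfsg.IsSteinerSystem 3 6 B) {b : Finset α} (hb : b ∈ B) :
    interNum B b 0 = 16 ∧ interNum B b 1 = 0 ∧ interNum B b 2 = 60 := by
  have hbc : b.card = 6 := hB.1 b hb
  have e := fun j (hj : j ≤ 3) =>
    sum_choose_mul_card_inter hB ∅ b (disjoint_empty_left b) j (by simpa using hj)
  have e0 := e 0 (by norm_num)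
  have e1 := e 1 (by norm_num)
  have e2 := e 2 (by norm_num)
  simp only [interNum_eq, hbc, hα, card_empty, zero_add, sum_range_succ, sum_range_zero]
    at e0 e1 e2
  have h6 := interNum_self hB hb
  have h3 := interNum_eq_zero hB hb (i := 3) (by norm_num) (by norm_num)
  have h4 := interNum_eq_zero hB hb (i := 4) (by norm_num) (by norm_num)
  have h5 := interNum_eq_zero hB hb (i := 5) (by norm_num) (by norm_num)
  rw [h3, h4, h5, h6] at e0 e1 e2
  norm_num [Nat.choose] at e0 e1 e2
  omega

/-- In an `S(3,6,22)` two distinct blocks meet in 0 or 2 points. -/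
theorem inter_card_3_6_22 (hα : Fintype.card α = 22) {B : Set (Finset α)}
    (hB : Cfsg.IsSteinerSystem 3 6 B) {b c : Finset α} (hb : b ∈ B) (hc : c ∈ B) (hbc : b ≠ c) :
    (b ∩ c).card = 0 ∨ (b ∩ c).card = 2 := by
  obtain ⟨-, h1, -⟩ := interNum_3_6_22 hα hB hb
  have hlt : (b ∩ c).card < 3 := by
    by_contra h
    exact hbc (eq_of_le_card_inter hB hb hc (by omega))
  have hne : (b ∩ c).card ≠ 1 := by
    intro h
    rw [interNum, card_eq_zero, filter_eq_empty_iff] at h1
    exact h1 (mem_blocksFin.mpr hc) h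
  omega

/-- In an `S(3,6,22)`, a point off a block `b` lies on exactly 6 blocks disjoint from `b`. -/
theorem card_point_disjoint_3_6_22 (hα : Fintype.card α = 22) {B : Set (Finset α)}
    (hB : Cfsg.IsSteinerSystem 3 6 B) {b : Finset α} (hb : b ∈ B) {p : α} (hp : p ∉ b) :
    ((blocksFin B).filter (fun c => p ∈ c ∧ (b ∩ c).card = 0)).card = 6 := by
  have hbc : b.card = 6 := hB.1 b hb
  have hdisj : Disjoint ({p} : Finset α) b := disjoint_singleton_left.mpr hp
  have e := fun j (hj : 1 + j ≤ 3) =>
    sum_choose_mul_card_inter hB {p} b hdisj j (by simpa using hj)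
  have e0 := e 0 (by norm_num)
  have e1 := e 1 (by norm_num)
  simp only [hbc, hα, card_singleton, singleton_subset_iff, sum_range_succ, sum_range_zero]
    at e0 e1
  have hz : ∀ i, i ≠ 0 → i ≠ 2 →
      ((blocksFin B).filter (fun c => p ∈ c ∧ (b ∩ c).card = i)).card = 0 := by
    intro i h0 h2
    rw [card_eq_zero, filter_eq_empty_iff]
    rintro c hc ⟨hpc, hi⟩
    rw [mem_blocksFin] at hc
    have hne : b ≠ c := by
      rintro rfl
      exact hp hpc
    rcases inter_card_3_6_22 hα hB hb hc hne with h | h <;> omega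
  rw [hz 1 (by norm_num) (by norm_num), hz 3 (by norm_num) (by norm_num),
    hz 4 (by norm_num) (by norm_num), hz 5 (by norm_num) (by norm_num),
    hz 6 (by norm_num) (by norm_num)] at e0 e1
  generalize ((blocksFin B).filter (fun c => p ∈ c ∧ (b ∩ c).card = 0)).card = y0 at e0 e1 ⊢
  generalize ((blocksFin B).filter (fun c => p ∈ c ∧ (b ∩ c).card = 2)).card = y2 at e0 e1 ⊢
  norm_num [Nat.choose] at e0 e1
  omega

/-- Common "disjoint neighbours" of two blocks `b`, `c` of an `S(3,6,22)`: the count of blocks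
disjoint from both, in terms of `|c \ b|` and whether `c` is disjoint from `b`. -/
theorem card_disjoint_both_aux (hα : Fintype.card α = 22) {B : Set (Finset α)}
    (hB : Cfsg.IsSteinerSystem 3 6 B) {b c : Finset α} (hb : b ∈ B) (hc : c ∈ B) :
    2 * ((blocksFin B).filter (fun d => (b ∩ d).card = 0 ∧ (c ∩ d).card = 0)).card + 6 * (c \ b).card
      = 32 + 4 * (if (b ∩ c).card = 0 then 1 else 0) := by
  set D := (blocksFin B).filter (fun d => (b ∩ d).card = 0) with hD
  have hDcard : D.card = 16 := (interNum_3_6_22 hα hB hb).1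
  -- double counting
  have hdc := sum_card_bipartiteAbove_eq_sum_card_bipartiteBelow (s := c \ b) (t := D)
    (fun (p : α) (d : Finset α) => p ∈ d)
  have hL : ∀ p ∈ c \ b, (D.bipartiteAbove (fun (p : α) (d : Finset α) => p ∈ d) p).card = 6 := by
    intro p hp
    rw [mem_sdiff] at hp
    have := card_point_disjoint_3_6_22 hα hB hb hp.2
    rw [← this, bipartiteAbove, hD, filter_filter]
    congr 1
    apply filter_congr
    intro d _
    exact and_comm
  rw [sum_congr rfl hL, sum_const, smul_eq_mul] at hdc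
  have hR : ∀ d ∈ D, ((c \ b).bipartiteBelow (fun (p : α) (d : Finset α) => p ∈ d) d).card =
      2 * (if (c ∩ d).card = 2 then 1 else 0) + 6 * (if d = c then 1 else 0) := by
    intro d hd
    rw [hD, mem_filter, mem_blocksFin] at hd
    have hbd : Disjoint b d := by
      rw [disjoint_iff_inter_eq_empty, ← card_eq_zero]; exact hd.2
    have h1 : (c \ b).bipartiteBelow (fun (p : α) (d : Finset α) => p ∈ d) d = c ∩ d := by
      ext p
      simp only [bipartiteBelow, mem_filter, mem_sdiff, mem_inter]
      constructor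
      · rintro ⟨⟨hpc, -⟩, hpd⟩
        exact ⟨hpc, hpd⟩
      · rintro ⟨hpc, hpd⟩
        exact ⟨⟨hpc, fun hpb => disjoint_left.mp hbd hpb hpd⟩, hpd⟩
    rw [h1]
    by_cases hdc : d = c
    · subst hdc
      rw [inter_self, hB.1 d hd.1]
      simp
    · rcases inter_card_3_6_22 hα hB hc hd.1 (fun h => hdc h.symm) with h | h
      · rw [h]; simp [hdc]
      · rw [h]; simp [hdc]
  rw [sum_congr rfl hR, sum_add_distrib, ← mul_sum, ← mul_sum, sum_boole, sum_boole] at hdc
  -- partition of D
  have hpart : ∀ d ∈ D, (1 : ℕ) = (if (c ∩ d).card = 0 then 1 else 0) +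
      (if (c ∩ d).card = 2 then 1 else 0) + (if d = c then 1 else 0) := by
    intro d hd
    rw [hD, mem_filter, mem_blocksFin] at hd
    by_cases hdc : d = c
    · subst hdc
      rw [inter_self, hB.1 d hd.1]
      simp
    · rcases inter_card_3_6_22 hα hB hc hd.1 (fun h => hdc h.symm) with h | h
      · rw [h]; simp [hdc]
      · rw [h]; simp [hdc]
  have hsum : D.card = ∑ d ∈ D, (1 : ℕ) := by simp
  rw [sum_congr rfl hpart, sum_add_distrib, sum_add_distrib, sum_boole, sum_boole, sum_boole]
    at hsum
  have h0 : D.filter (fun d => (c ∩ d).card = 0) =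
      (blocksFin B).filter (fun d => (b ∩ d).card = 0 ∧ (c ∩ d).card = 0) := by
    rw [hD, filter_filter]
  have h6 : (D.filter (fun d => d = c)).card = (if (b ∩ c).card = 0 then 1 else 0) := by
    rw [filter_eq']
    by_cases hbc : (b ∩ c).card = 0
    · have : c ∈ D := by
        rw [hD, mem_filter, mem_blocksFin]; exact ⟨hc, hbc⟩
      simp [this, hbc]
    · have : c ∉ D := by
        rw [hD, mem_filter, mem_blocksFin]; exact fun h => hbc h.2
      simp [this, hbc]
  rw [h0] at hsum
  rw [h6] at hsum hdc
  simp only [Nat.cast_id] at hsum hdc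
  omega

/-- Two disjoint blocks of an `S(3,6,22)` have no common disjoint block. -/
theorem card_disjoint_both_of_disjoint (hα : Fintype.card α = 22) {B : Set (Finset α)}
    (hB : Cfsg.IsSteinerSystem 3 6 B) {b c : Finset α} (hb : b ∈ B) (hc : c ∈ B)
    (hbc : (b ∩ c).card = 0) :
    ((blocksFin B).filter (fun d => (b ∩ d).card = 0 ∧ (c ∩ d).card = 0)).card = 0 := by
  have h := card_disjoint_both_aux hα hB hb hc
  have h1 : (c \ b).card = 6 := by
    have := card_sdiff_add_card_inter c b
    rw [inter_comm, hbc, hB.1 c hc] at this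
    omega
  rw [h1, if_pos hbc] at h
  omega

/-- Two blocks of an `S(3,6,22)` meeting in two points have exactly 4 common disjoint blocks. -/
theorem card_disjoint_both_of_inter (hα : Fintype.card α = 22) {B : Set (Finset α)}
    (hB : Cfsg.IsSteinerSystem 3 6 B) {b c : Finset α} (hb : b ∈ B) (hc : c ∈ B)
    (hbc : (b ∩ c).card = 2) :
    ((blocksFin B).filter (fun d => (b ∩ d).card = 0 ∧ (c ∩ d).card = 0)).card = 4 := by
  have h := card_disjoint_both_aux hα hB hb hc
  have h1 : (c \ b).card = 4 := by
    have := card_sdiff_add_card_inter c b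
    rw [inter_comm, hbc, hB.1 c hc] at this
    omega
  rw [h1, if_neg (by omega)] at h
  omega

end Cfsg.Agent.Lib.Helper11
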