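import Mathlib
import Cfsg.Agent.S0999
import Cfsg.Agent.Lib.Helper6.PSLCard

set_option autoImplicit false

namespace Cfsg.Agent.S496

theorem card_of_large_prime {G : Type*} [Group G] [Finite G] [IsSimpleGroup G]
    (hG : ¬ IsMulCommutative G)
    (p : ℕ) (hp : p.Prime) (hdvd : p ∣ Nat.card G) (hbig : Nat.card G < p ^ 3)
    (hle : Nat.card G ≤ 1092) :
    Nat.card G = 60 ∨ Nat.card G = 168 ∨ Nat.card G = 660 ∨ Nat.card G = 1092 := by
  have hcyc : ¬ IsCyclic G := fun hc =>
    hG ⟨⟨fun a b => (IsCyclic.commGroup (α := G)).mul_comm a b⟩⟩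
  have hpos : 0 < Nat.card G := Nat.card_pos
  rcases Cfsg.Agent.S0999.result hcyc p hp hdvd hbig with
    ⟨F, _, _, hF, h3, ⟨e⟩⟩ | ⟨m, F, _, _, hF, hpm, h3, ⟨e⟩⟩
  · have hcard : Nat.card G = Nat.card (Matrix.ProjectiveSpecialLinearGroup (Fin 2) F) :=
      Nat.card_congr e.toEquiv
    have hpsl := Cfsg.Agent.Lib.Helper6.card_psl hF 2 (by norm_num)
    rw [Fin.prod_univ_two, ← hcard] at hpsl
    simp only [Fin.val_zero, Fin.val_one, pow_zero, pow_one] at hpsl
    have hodd : p % 2 = 1 := by
      rcases hp.eq_two_or_odd with h2 | h2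
      · omega
      · exact h2
    have hgcd : Nat.gcd 2 (p - 1) = 2 := by
      have : 2 ∣ p - 1 := by omega
      exact Nat.gcd_eq_left this
    rw [hgcd] at hpsl
    have hp13 : p ≤ 13 := by
      by_contra hlt
      have h14 : 14 ≤ p := by omega
      have e1 : p ^ 2 - p = p * (p - 1) := by
        rw [Nat.mul_sub, mul_one, sq]
      have e2 : 195 ≤ p ^ 2 - 1 := by
        have : 14 * 14 ≤ p ^ 2 := by nlinarith
        omega
      rw [e1] at hpsl
      have hp1 : 0 < p - 1 := by omega
      have h5 : 2 * Nat.card G = (p ^ 2 - 1) * p := by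
        have : (p - 1) * (2 * Nat.card G) = (p - 1) * ((p ^ 2 - 1) * p) := by
          calc (p - 1) * (2 * Nat.card G) = 2 * ((p - 1) * Nat.card G) := by ring
            _ = (p ^ 2 - 1) * (p * (p - 1)) := hpsl
            _ = (p - 1) * ((p ^ 2 - 1) * p) := by ring
        exact Nat.eq_of_mul_eq_mul_left hp1 this
      have : 195 * 14 ≤ (p ^ 2 - 1) * p := Nat.mul_le_mul e2 h14
      omega
    interval_cases p
    all_goals first
      | (norm_num at hp; done)
      | (norm_num at hpsl; omega)
  · have hcard : Nat.card G = Nat.card (Matrix.ProjectiveSpecialLinearGroup (Fin 2) F) :=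
      Nat.card_congr e.toEquiv
    have hpsl := Cfsg.Agent.Lib.Helper6.card_psl hF 2 (by norm_num)
    rw [Fin.prod_univ_two, ← hcard] at hpsl
    simp only [Fin.val_zero, Fin.val_one, pow_zero, pow_one] at hpsl
    -- q = 2^m, p = q + 1 > 3
    have hm4 : m ≤ 3 := by
      by_contra hlt
      have h4 : 4 ≤ m := by omega
      have hq16 : 2 ^ 4 ≤ 2 ^ m := Nat.pow_le_pow_right (by norm_num) h4
      have : 17 ≤ p := by omega
      have : 17 ^ 3 ≤ p ^ 3 := Nat.pow_le_pow_left this 3
      -- p ∣ card G ≤ 1092 fine; need contradiction: card G = q(q^2-1) ≥ 4080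
      set q := 2 ^ m with hq
      have hq1 : 0 < q - 1 := by omega
      have hgcd : Nat.gcd 2 (q - 1) = 1 := by
        have : (q - 1) % 2 = 1 := by
          have : q % 2 = 0 := by
            rw [hq]; exact Nat.pow_mod 2 m 2 ▸ (by
              rcases m with _ | m
              · omega
              · simp [pow_succ])
          omega
        exact (Nat.Prime.coprime_iff_not_dvd Nat.prime_two).mpr (by omega)
      rw [hgcd, one_mul] at hpsl
      have e1 : q ^ 2 - q = q * (q - 1) := by
        rw [Nat.mul_sub, mul_one, sq]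
      rw [e1] at hpsl
      have h5 : Nat.card G = (q ^ 2 - 1) * q := by
        have : (q - 1) * Nat.card G = (q - 1) * ((q ^ 2 - 1) * q) := by
          rw [hpsl]; ring
        exact Nat.eq_of_mul_eq_mul_left hq1 this
      have e2 : 255 ≤ q ^ 2 - 1 := by
        have : 16 * 16 ≤ q ^ 2 := by nlinarith
        omega
      have : 255 * 16 ≤ (q ^ 2 - 1) * q := Nat.mul_le_mul e2 hq16
      omega
    interval_cases m
    · omega
    · omega
    · norm_num at hpsl hpm
      subst hpm
      left
      omega
    · norm_num at hpm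
      subst hpm
      exact absurd hp (by norm_num)

end Cfsg.Agent.S496
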