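import Mathlib
import Cfsg.Agent.S0144

namespace Cfsg.Agent.S496

def routeOk (N : ℕ) : Bool :=
  decide (N ∈ [1, 60, 168, 360, 504]) ||
  ((decide (N ∣ 2 ^ 10 * 3 ^ 6) || (decide (N ∣ 2 ^ 10 * 5 ^ 4) || (decide (N ∣ 2 ^ 10 * 7 ^ 3) ||
    (decide (N ∣ 3 ^ 6 * 5 ^ 4) || (decide (N ∣ 3 ^ 6 * 7 ^ 3) || decide (N ∣ 5 ^ 4 * 7 ^ 3)))))) ||
  ((decide (N % 2 = 0) && (decide (N % 12 ≠ 0) && (decide (N % 16 ≠ 0) && decide (N % 56 ≠ 0)))) ||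
  ((decide (N % 7 = 0) && decide (N < 343)) ||
  ((decide (N % 5 = 0) && decide (N < 125)) ||
  decide (N ∈ [180, 240, 300, 420, 480, 525, 540, 560, 588, 600, 672, 720, 735, 756, 840, 900,
    945, 960, 1008, 1080])))))

theorem route_cert :
    (List.range 1093).all
      (fun N => !(decide (N ∣ 2 ^ 10 * 3 ^ 6 * 5 ^ 4 * 7 ^ 3)) || routeOk N) = true := by
  decide +kernel

theorem route {N : ℕ} (hle : N ≤ 1092) (hd : N ∣ 2 ^ 10 * 3 ^ 6 * 5 ^ 4 * 7 ^ 3) :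
    (N = 1 ∨ N = 60 ∨ N = 168 ∨ N = 360 ∨ N = 504) ∨
    (N ∣ 2 ^ 10 * 3 ^ 6 ∨ N ∣ 2 ^ 10 * 5 ^ 4 ∨ N ∣ 2 ^ 10 * 7 ^ 3 ∨ N ∣ 3 ^ 6 * 5 ^ 4 ∨
      N ∣ 3 ^ 6 * 7 ^ 3 ∨ N ∣ 5 ^ 4 * 7 ^ 3) ∨
    (N % 2 = 0 ∧ N % 12 ≠ 0 ∧ N % 16 ≠ 0 ∧ N % 56 ≠ 0) ∨ (N % 7 = 0 ∧ N < 343) ∨
    (N % 5 = 0 ∧ N < 125) ∨
    (N = 180 ∨ N = 240 ∨ N = 300 ∨ N = 420 ∨ N = 480 ∨ N = 525 ∨ N = 540 ∨ N = 560 ∨ N = 588 ∨
     N = 600 ∨ N = 672 ∨ N = 720 ∨ N = 735 ∨ N = 756 ∨ N = 840 ∨ N = 900 ∨ N = 945 ∨ N = 960 ∨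
     N = 1008 ∨ N = 1080) := by
  have h0 := route_cert
  rw [List.all_eq_true] at h0
  have h := h0 N (List.mem_range.mpr (by omega))
  simp only [Bool.or_eq_true, Bool.not_eq_true', decide_eq_false_iff_not] at h
  rcases h with h | h
  · exact absurd hd h
  · unfold routeOk at h
    simp only [Bool.or_eq_true, Bool.and_eq_true, decide_eq_true_eq, List.mem_cons,
      List.not_mem_nil, or_false] at h
    exact h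

theorem solv_false {G : Type*} [Group G] [Finite G] [IsSimpleGroup G] (hG : ¬ IsMulCommutative G)
    (p q a b : ℕ) (hp : p.Prime) (hq : q.Prime) (hdv : Nat.card G ∣ p ^ a * q ^ b) : False := by
  obtain ⟨y, z, hy, hz, hyz⟩ := (Nat.dvd_mul).mp hdv
  obtain ⟨a', _, rfl⟩ := (Nat.dvd_prime_pow hp).mp hy
  obtain ⟨b', _, rfl⟩ := (Nat.dvd_prime_pow hq).mp hz
  have hs : Group.IsSolvable G := Cfsg.Agent.S0144.result (G := G) p q a' b' hp hq hyz.symm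
  exact hG ⟨⟨fun x y => (IsSimpleGroup.comm_iff_isSolvable.mpr hs) x y⟩⟩

end Cfsg.Agent.S496
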