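import Mathlib

/-!
# S0983 (helper11): decidable numeric filters for the Sylow data of a simple group

`cands N p` lists the triples `(d, c, r)` = (number of Sylow `p`-subgroups, `|C(P)| / p`,
`|N(P) : C(P)|`) that survive the elementary numeric tests, for a prime `p` dividing `N` exactly once.
`candsPow N p a` lists the surviving numbers of Sylow `p`-subgroups when `p ^ a` (`2 ≤ a`) is the
exact power of `p` in `N`.
-/

set_option autoImplicit false

namespace Cfsg.Agent.S983

/-- the Brauer--Reynolds test for `n_p = 1 + n * p` -/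
def brOK (N p n : ℕ) : Bool :=
  (decide (3 < p) && (decide ((p ^ 2 - 1) * p ∣ 2 * N) ||
    ((decide (p = 5) || (decide (p = 17) || decide (200 < p))) &&
      decide ((p - 1) * p * (p - 2) ∣ N)))) ||
  (List.range (n + 1)).any fun u =>
    decide (0 < u) && (decide (u ^ 2 + u < n * (u + 1)) &&
      decide (u * p + 1 ∣ n * (u + 1) - (u ^ 2 + u)))

/-- an element of prime order `q` centralizing a Sylow `p`-subgroup has a legal number `f` of fixed
Sylow `p`-subgroups -/
def fixOK (p d q : ℕ) : Bool :=
  (List.range d).any fun f =>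
    decide (f % p = 1) && (decide (f % q = d % q) && (decide (q ≠ 2) || decide (f % 4 = d % 4)))

/-- the exceptional-character test for `|N(P)| = 2p`, `C(P) = P` -/
def excOK (N p : ℕ) : Bool :=
  (List.range (N + 1)).any fun e =>
    decide (2 ≤ e) && (decide (e ∣ N) && (decide (e + 1 ∣ N) &&
      (decide (e % p = 1) || decide ((e + 2) % p = 0))))

/-- all numeric tests for a candidate `(d, c, r)` -/
def candOK (N p d c r : ℕ) : Bool :=
  decide (d % p = 1) && (decide (d ≠ 1) && (decide (p * c * r * d = N) && (decide (r ∣ p - 1) &&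
  (decide (r ≠ 1) && ((decide (40 < d) || decide (2 * N ∣ d.factorial)) &&
  ((decide (p ≠ 5) || decide (d ≠ 21)) && (brOK N p ((d - 1) / p) &&
  (([2, 3, 5, 7, 11, 13].all fun q => !decide (q ∣ c) || fixOK p d q) &&
  (decide (c ≠ 1) || (decide (r ≠ 2) || (decide (p = 2) || excOK N p)))))))))))

/-- the surviving candidates `(d, c, r)` -/
def cands (N p : ℕ) : List (ℕ × ℕ × ℕ) :=
  ((List.range (N / p + 1)).filter fun d => decide (d % p = 1) && decide (d ∣ N / p)).flatMap
    fun d => (List.range p).filterMap fun r =>
      if candOK N p d (N / (p * r * d)) r then some (d, N / (p * r * d), r) else none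

/-- the surviving numbers of Sylow `p`-subgroups when `p ^ a ∥ N`, `2 ≤ a` -/
def candsPow (N p a : ℕ) : List ℕ :=
  (List.range (N / p ^ a + 1)).filter fun d =>
    decide (d % p = 1) && (decide (d ≠ 1) && (decide (d ∣ N / p ^ a) &&
    ((decide (40 < d) || decide (2 * N ∣ d.factorial)) && (decide (p ^ 2 ≤ d) &&
    (decide (a ≠ 2) || decide (d ≠ N / p ^ a))))))

end Cfsg.Agent.S983
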