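import Mathlib

/-!
# S0983 (helper11): the arithmetic routing certificate for the orders 3641..6232
-/

set_option autoImplicit false

namespace Cfsg.Agent.S983

/-- two-prime divisibility (Burnside) -/
def burnOk (N : ℕ) : Bool :=
  [(2, 12, 3, 7), (2, 12, 5, 5), (2, 12, 7, 4), (2, 12, 11, 3), (2, 12, 13, 3), (2, 12, 17, 3), (3, 7, 5, 5), (3, 7, 7, 4), (3, 7, 11, 3), (3, 7, 13, 3), (3, 7, 17, 3), (5, 5, 7, 4), (5, 5, 11, 3), (5, 5, 13, 3), (5, 5, 17, 3), (7, 4, 11, 3), (7, 4, 13, 3), (7, 4, 17, 3), (11, 3, 13, 3), (11, 3, 17, 3), (13, 3, 17, 3)].any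
    fun t : ℕ × ℕ × ℕ × ℕ => decide (N ∣ t.1 ^ t.2.1 * t.2.2.1 ^ t.2.2.2)

/-- the orders that need an individual argument -/
def explicitOrders : List ℕ :=
  [3675, 3696, 3744, 3780, 3840, 3861, 3900, 3920, 3960, 4032, 4056, 4095, 4116, 4125, 4160, 4200, 4212, 4224, 4235, 4312, 4320, 4356, 4368, 4400, 4455, 4480, 4500, 4536, 4576, 4620, 4680, 4704, 4719, 4725, 4752, 4800, 4851, 4860, 4875, 4928, 4992, 5005, 5040, 5049, 5096, 5100, 5145, 5148, 5200, 5265, 5280, 5292, 5304, 5355, 5376, 5400, 5440, 5445, 5460, 5508, 5525, 5544, 5577, 5600, 5712, 5733, 5760, 5775, 5808, 5824, 5880, 5915, 5940, 5967, 5984, 6000, 6069, 6084, 6120, 6160, 6171]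

def routeOk (N : ℕ) : Bool :=
  decide (N ∈ [4080, 5616, 6048, 6072]) ||
  ((decide (N % 17 = 0) && decide (N < 4913)) ||
  (burnOk N ||
  ((decide (N % 2 = 0) && (decide (N % 12 ≠ 0) && (decide (N % 16 ≠ 0) && decide (N % 56 ≠ 0)))) ||
  decide (N ∈ explicitOrders))))

set_option maxRecDepth 100000 in
theorem route_cert :
    (List.range 6233).all
      (fun N => decide (N ≤ 3640) ||
        (!(decide (N ∣ 2 ^ 12 * 3 ^ 7 * 5 ^ 5 * 7 ^ 4 * 11 ^ 3 * 13 ^ 3 * 17 ^ 3)) || routeOk N)) =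
      true := by
  decide +kernel

theorem route {N : ℕ} (h1 : 3640 < N) (hle : N ≤ 6232)
    (hd : N ∣ 2 ^ 12 * 3 ^ 7 * 5 ^ 5 * 7 ^ 4 * 11 ^ 3 * 13 ^ 3 * 17 ^ 3) :
    (N = 4080 ∨ N = 5616 ∨ N = 6048 ∨ N = 6072) ∨ (N % 17 = 0 ∧ N < 4913) ∨
    (∃ t ∈ ([(2, 12, 3, 7), (2, 12, 5, 5), (2, 12, 7, 4), (2, 12, 11, 3), (2, 12, 13, 3), (2, 12, 17, 3), (3, 7, 5, 5), (3, 7, 7, 4), (3, 7, 11, 3), (3, 7, 13, 3), (3, 7, 17, 3), (5, 5, 7, 4), (5, 5, 11, 3), (5, 5, 13, 3), (5, 5, 17, 3), (7, 4, 11, 3), (7, 4, 13, 3), (7, 4, 17, 3), (11, 3, 13, 3), (11, 3, 17, 3), (13, 3, 17, 3)] : List (ℕ × ℕ × ℕ × ℕ)), N ∣ t.1 ^ t.2.1 * t.2.2.1 ^ t.2.2.2) ∨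
    (N % 2 = 0 ∧ N % 12 ≠ 0 ∧ N % 16 ≠ 0 ∧ N % 56 ≠ 0) ∨ N ∈ explicitOrders := by
  have h0 := route_cert
  rw [List.all_eq_true] at h0
  have h := h0 N (List.mem_range.mpr (by omega))
  simp only [Bool.or_eq_true, Bool.not_eq_true', decide_eq_false_iff_not, decide_eq_true_eq] at h
  rcases h with h | h | h
  · omega
  · exact absurd hd h
  · unfold routeOk at h
    simp only [Bool.or_eq_true, Bool.and_eq_true, decide_eq_true_eq, List.mem_cons,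
      List.not_mem_nil, or_false] at h
    rcases h with h | h | h | h | h
    · exact Or.inl h
    · exact Or.inr (Or.inl h)
    · refine Or.inr (Or.inr (Or.inl ?_))
      unfold burnOk at h
      rw [List.any_eq_true] at h
      obtain ⟨t, ht, ht2⟩ := h
      exact ⟨t, ht, of_decide_eq_true ht2⟩
    · exact Or.inr (Or.inr (Or.inr (Or.inl h)))
    · exact Or.inr (Or.inr (Or.inr (Or.inr h)))

end Cfsg.Agent.S983
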