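import Mathlib
import Cfsg.Agent.Lib.Helper18.SLMDefs
import Cfsg.Agent.Lib.Helper93.WRMINSUB
import Cfsg.Agent.Lib.Helper28.WRMASCHKE

/-! Project SLM (helper18, S2332), piece EXMIN (helper11): a representation of `SL_{k+1}(F)` with a
non-zero weight space `wt ψ σ l` has a minimal invariant subspace meeting that weight space
non-trivially. -/

set_option autoImplicit false

namespace Cfsg.Agent.Lib.Helper18.SLM

open Matrix

universe u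

variable {F : Type u} [Field F] [Fintype F]

theorem exmin_aux {W : Type*} [AddCommGroup W] [Module ℂ W] [FiniteDimensional ℂ W]
    (ψ : AddChar F ℂ) {k : ℕ}
    (σ : Representation ℂ (Matrix.SpecialLinearGroup (Fin (k + 1)) F) W) (l : Fin k → F) :
    ∀ n : ℕ, ∀ U : Submodule ℂ W, Module.finrank ℂ U = n → (∀ g, ∀ v ∈ U, σ g v ∈ U) →
      (∃ v ∈ U, v ≠ 0 ∧ v ∈ wt ψ σ l) →
      ∃ C : Submodule ℂ W, C ≠ ⊥ ∧ (∀ g, ∀ v ∈ C, σ g v ∈ C) ∧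
        (∀ C' : Submodule ℂ W, C' ≤ C → (∀ g, ∀ v ∈ C', σ g v ∈ C') → C' = ⊥ ∨ C' = C) ∧
        ∃ v ∈ C, v ≠ 0 ∧ v ∈ wt ψ σ l := by
  classical
  haveI : Finite (Matrix.SpecialLinearGroup (Fin (k + 1)) F) := inferInstance
  intro n
  induction n using Nat.strong_induction_on with
  | _ n ih =>
    intro U hUn hU ⟨v, hvU, hv0, hvw⟩
    have hUne : U ≠ ⊥ := by
      intro h
      rw [h, Submodule.mem_bot] at hvU
      exact hv0 hvU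
    obtain ⟨C₁, hC₁le, hC₁ne, hC₁inv, hC₁min⟩ := WR.exists_min_invariant σ U hU hUne
    obtain ⟨C₂, hC₂inv, hC₂le, hinf, hsup⟩ := WR.maschke_compl σ U C₁ hU hC₁inv hC₁le
    have hv' : v ∈ C₁ ⊔ C₂ := by rw [hsup]; exact hvU
    obtain ⟨v₁, hv₁, v₂, hv₂, rfl⟩ := Submodule.mem_sup.1 hv'
    have key : ∀ u : Fin k → F, σ (x1 u) v₁ - ψ (l ⬝ᵥ u) • v₁ = 0 ∧
        σ (x1 u) v₂ - ψ (l ⬝ᵥ u) • v₂ = 0 := by
      intro u
      have h := hvw u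
      rw [map_add, smul_add] at h
      have h1 : σ (x1 u) v₁ - ψ (l ⬝ᵥ u) • v₁ ∈ C₁ :=
        C₁.sub_mem (hC₁inv _ _ hv₁) (C₁.smul_mem _ hv₁)
      have h2 : σ (x1 u) v₂ - ψ (l ⬝ᵥ u) • v₂ ∈ C₂ :=
        C₂.sub_mem (hC₂inv _ _ hv₂) (C₂.smul_mem _ hv₂)
      have h3 : σ (x1 u) v₁ - ψ (l ⬝ᵥ u) • v₁ = -(σ (x1 u) v₂ - ψ (l ⬝ᵥ u) • v₂) := by
        rw [neg_sub, sub_eq_sub_iff_add_eq_add]
        rw [h]
        abel
      have h4 : σ (x1 u) v₁ - ψ (l ⬝ᵥ u) • v₁ ∈ C₁ ⊓ C₂ :=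
        ⟨h1, by rw [h3]; exact C₂.neg_mem h2⟩
      rw [hinf, Submodule.mem_bot] at h4
      refine ⟨h4, ?_⟩
      rw [h4] at h3
      have := neg_eq_zero.1 h3.symm
      exact this
    have hw₁ : v₁ ∈ wt ψ σ l := fun u => sub_eq_zero.1 (key u).1
    have hw₂ : v₂ ∈ wt ψ σ l := fun u => sub_eq_zero.1 (key u).2
    by_cases h10 : v₁ = 0
    · -- pass to `C₂`
      have hv₂0 : v₂ ≠ 0 := by
        intro h
        apply hv0
        rw [h10, h, add_zero]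
      have hrank : Module.finrank ℂ C₂ < n := by
        have h := Submodule.finrank_sup_add_finrank_inf_eq C₁ C₂
        rw [hsup, hinf, finrank_bot, add_zero, hUn] at h
        have hpos : 0 < Module.finrank ℂ C₁ := by
          rw [Nat.pos_iff_ne_zero]
          intro h0
          exact hC₁ne (Submodule.finrank_eq_zero.1 h0)
        omega
      exact ih _ hrank C₂ rfl hC₂inv ⟨v₂, hv₂, hv₂0, hw₂⟩
    · exact ⟨C₁, hC₁ne, hC₁inv, hC₁min, v₁, hv₁, h10, hw₁⟩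

-- piece EXMIN
theorem exists_min_wt {W : Type*} [AddCommGroup W] [Module ℂ W] [FiniteDimensional ℂ W]
    (ψ : AddChar F ℂ) {k : ℕ}
    (σ : Representation ℂ (Matrix.SpecialLinearGroup (Fin (k + 1)) F) W) (l : Fin k → F)
    (h : wt ψ σ l ≠ ⊥) :
    ∃ C : Submodule ℂ W, C ≠ ⊥ ∧ (∀ g, ∀ v ∈ C, σ g v ∈ C) ∧
      (∀ C' : Submodule ℂ W, C' ≤ C → (∀ g, ∀ v ∈ C', σ g v ∈ C') → C' = ⊥ ∨ C' = C) ∧
      ∃ v ∈ C, v ≠ 0 ∧ v ∈ wt ψ σ l := by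
  obtain ⟨v, hv, hv0⟩ := (Submodule.ne_bot_iff _).1 h
  exact exmin_aux ψ σ l _ ⊤ rfl (fun _ _ _ => Submodule.mem_top) ⟨v, Submodule.mem_top, hv0, hv⟩

end Cfsg.Agent.Lib.Helper18.SLM
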